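import Cfsg.Agent.H462.DPK.K
import Cfsg.Agent.H506.DPL.Defs
import Cfsg.Agent.H364.OutLie
import Cfsg.Agent.H899.Cyc.Defs
import Cfsg.Agent.S0249

/-!
# S4247, row `[L]`: the counting statement `StCnt` (helper462)

`card_dvd_of_cfg` : in a configuration `|S|` divides `|B'| |P| |K'| |Out S|`.
-/

set_option autoImplicit false

namespace Cfsg.Agent.H462.DPK

open Subgroup Cfsg Cfsg.Agent.H988.CPi Cfsg.Agent.H571.RV Cfsg.Agent.H817.DPi

universe u

/-- `|B N : B| = |N : B ∩ N|` for a normal subgroup `N` -/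
theorem relIndex_sup {G : Type*} [Group G] [Finite G] (B N : Subgroup G) [N.Normal] :
    B.relIndex (B ⊔ N) = B.relIndex N := by
  have h1 := relIndex_mul_sup_index B N
  have h2 : B.relIndex (B ⊔ N) * (B ⊔ N).index = B.index := relIndex_mul_index le_sup_left
  rw [← h1] at h2
  exact Nat.eq_of_mul_eq_mul_right (Nat.pos_of_ne_zero Subgroup.index_ne_zero_of_finite) h2

/-- **The order of `S` in a configuration.** -/
theorem card_dvd_of_cfg {π : Set ℕ} {S : Type u} [Group S] [Finite S] [IsSimpleGroup S] (hna : ¬ IsMulCommutative S)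
    {P : Subgroup S} {K B : Subgroup (MulAut S)} (h : Cfg π P K B) :
    Nat.card S ∣ Nat.card (B.comap MulAut.conj) * (Nat.card P *
      (Nat.card (K.comap MulAut.conj) * Nat.card (Cfsg.Out S))) := by
  have hinj := conj_injective hna
  -- `|S : B'|` divides `|P| |K|`
  have h1 : (B.comap MulAut.conj).index ∣ Nat.card P * Nat.card K := by
    have hPK : ∀ (x : P) (k : K), Commute (MulAut.conj (x : S)) (k : MulAut S) := by
      rintro ⟨x, hx⟩ ⟨k, hk⟩
      have h2 := h.fix k hk x hx
      change MulAut.conj x * k = k * MulAut.conj x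
      ext y
      change x * k y * x⁻¹ = k (x * y * x⁻¹)
      rw [map_mul, map_mul, map_inv, h2]
    let φ : P × K →* MulAut S := MonoidHom.noncommCoprod ((MulAut.conj : S →* MulAut S).comp P.subtype) K.subtype
      fun x k => hPK x k
    have h3 : Nat.card φ.range ∣ Nat.card P * Nat.card K := by
      rw [← Nat.card_prod]
      exact Subgroup.card_range_dvd φ
    have hle : φ.range ≤ B ⊔ inn S := by
      rintro _ ⟨⟨x, k⟩, rfl⟩
      change MulAut.conj (x : S) * (k : MulAut S) ∈ B ⊔ inn S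
      refine mul_mem (mem_sup_right ⟨x, rfl⟩) ?_
      rw [← h.sup]
      exact mem_sup_left k.2
    have h4 : (B.subgroupOf (B ⊔ inn S)).index ∣ Nat.card (φ.range.subgroupOf (B ⊔ inn S)) := by
      refine Cfsg.Agent.H899.CG.card_dvd_mul_of_fac fun t => ?_
      obtain ⟨x, hx, k, hk, b, hb, ht⟩ := h.fac t t.2
      have hxk : MulAut.conj x * k ∈ φ.range := ⟨⟨⟨x, hx⟩, ⟨k, hk⟩⟩, rfl⟩
      refine ⟨⟨MulAut.conj x * k, hle hxk⟩, hxk, ⟨b, mem_sup_left hb⟩, hb, Subtype.ext ht⟩
    have h5 : Nat.card (φ.range.subgroupOf (B ⊔ inn S)) = Nat.card φ.range :=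
      Nat.card_congr (Subgroup.subgroupOfEquivOfLe hle).toEquiv
    have h6 : (B.comap MulAut.conj).index = (B.subgroupOf (B ⊔ inn S)).index := by
      rw [Subgroup.index_comap]
      exact (relIndex_sup B (inn S)).symm
    rw [h6]
    exact h4.trans (h5 ▸ h3)
  have h2 : Nat.card K ∣ Nat.card (K.comap MulAut.conj) * Nat.card (Cfsg.Out S) := by
    have h3 : Nat.card ((inn S).subgroupOf K) * ((inn S).subgroupOf K).index = Nat.card K :=
      ((inn S).subgroupOf K).card_mul_index
    rw [← h3]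
    refine Nat.mul_dvd_mul ?_ (Subgroup.relIndex_dvd_index_of_normal _ _)
    have h5 : ((inn S).subgroupOf K).map K.subtype = (K.comap MulAut.conj).map MulAut.conj := by
      rw [Subgroup.subgroupOf_map_subtype, Subgroup.map_comap_eq]
      rfl
    rw [← Subgroup.card_map_of_injective K.subtype_injective, h5, Subgroup.card_map_of_injective hinj]
  rw [← (B.comap MulAut.conj).card_mul_index]
  exact Nat.mul_dvd_mul_left _ (h1.trans (Nat.mul_dvd_mul_left _ h2))

/-- the `p`-part -/
theorem num_aux {p N b s k o m : ℕ} (hp : p.Prime) (hb : b ≠ 0) (hs : s ≠ 0) (hk : k ≠ 0) (ho : o ≠ 0)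
    (hd : p ^ N ∣ b * (s * (k * o))) (hps : ¬ p ∣ s) (hm : m ≠ 0) (hom : ∀ v, p ^ v ∣ o → p ^ v ∣ m) :
    ∃ i j : ℕ, p ^ i ∣ b ∧ p ^ j ∣ k ∧ p ^ N ≤ p ^ i * p ^ j * m := by
  refine ⟨b.factorization p, k.factorization p, Nat.ordProj_dvd b p, Nat.ordProj_dvd k p, ?_⟩
  have h1 : p ^ o.factorization p ≤ m := Nat.le_of_dvd (Nat.pos_of_ne_zero hm) (hom _ (Nat.ordProj_dvd o p))
  have h2 : N ≤ b.factorization p + k.factorization p + o.factorization p := by
    rw [hp.pow_dvd_iff_le_factorization (by positivity), Nat.factorization_mul hb (by positivity),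
      Nat.factorization_mul hs (by positivity), Nat.factorization_mul hk ho] at hd
    simp only [Finsupp.add_apply, Nat.factorization_eq_zero_of_not_dvd hps] at hd
    omega
  calc p ^ N ≤ p ^ (b.factorization p + k.factorization p + o.factorization p) :=
        Nat.pow_le_pow_right hp.pos h2
    _ = p ^ b.factorization p * p ^ k.factorization p * p ^ o.factorization p := by rw [pow_add, pow_add]
    _ ≤ _ := Nat.mul_le_mul_left _ h1

/-- **`StCnt`** -/
theorem st_cnt : Cfsg.Agent.H506.DPL.StCnt := by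
  intro π p a F _ _ n P K B hp hpπ hF hn h
  have hpf := Fact.mk hp
  have ha : 1 ≤ a := by
    by_contra hcon
    have h1 := Fintype.one_lt_card (α := F)
    rw [hF, show a = 0 by omega, pow_zero] at h1
    omega
  have hs : IsSimpleGroup (Matrix.ProjectiveSpecialLinearGroup (Fin n) F) := S0249.result n hn
  have hfin : Finite (Matrix.ProjectiveSpecialLinearGroup (Fin n) F) := Quotient.finite _
  have hna : ¬ IsMulCommutative (Matrix.ProjectiveSpecialLinearGroup (Fin n) F) := by
    intro hc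
    apply h.nnil
    let _ : CommGroup P := { (inferInstance : Group P) with
      mul_comm := fun x y => Subtype.ext (hc.is_comm.comm _ _) }
    infer_instance
  have hd := card_dvd_of_cfg hna h
  have hR := Cfsg.Agent.H902.Names.psl_real hp ha hF (n := n) (by omega) (by omega)
  have h1 : Nat.gcd n (p ^ a - 1) * Nat.card (Matrix.ProjectiveSpecialLinearGroup (Fin n) F) =
      (p ^ a) ^ (n * (n - 1) / 2) * Cfsg.Agent.H902.Art.num (.L n) (p ^ a) := hR.eq
  have hcop : Nat.Coprime p (Nat.gcd n (p ^ a - 1)) := by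
    rw [Nat.Prime.coprime_iff_not_dvd hp]
    intro h2
    have h3 := h2.trans (Nat.gcd_dvd_right _ _)
    have h4 : p ∣ p ^ a := dvd_pow_self p (by omega)
    have h5 : p ∣ p ^ a - (p ^ a - 1) := Nat.dvd_sub h4 h3
    rw [Nat.sub_sub_self (Nat.one_le_pow _ _ hp.pos)] at h5
    exact hp.one_lt.ne' (Nat.dvd_one.1 h5)
  have h2 : p ^ (a * (n * (n - 1) / 2)) ∣ Nat.card (Matrix.ProjectiveSpecialLinearGroup (Fin n) F) := by
    refine (Nat.Coprime.pow_left _ hcop).dvd_of_dvd_mul_left ?_
    rw [h1, pow_mul]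
    exact dvd_mul_right _ _
  -- the outer automorphism group
  have hout : Nat.card (Cfsg.Out (Matrix.ProjectiveSpecialLinearGroup (Fin n) F)) =
      2 * Nat.gcd n (p ^ a - 1) * a := by
    have h3 := Cfsg.Agent.S0813.result p a ha hF n (by omega) (by omega)
    rw [H364.OutLie.card_pgl (by omega), hF, if_neg (by omega)] at h3
    refine H934.OutB.card_out_of_aut hna ?_
    rw [h3]
    ring
  rw [hF, ← pow_mul]
  refine num_aux hp Nat.card_pos.ne' (s := Nat.card P) Nat.card_pos.ne' Nat.card_pos.ne' Nat.card_pos.ne'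
    (h2.trans hd) (fun h3 => hpπ (h.hall.1 p hp h3)) (by omega) ?_
  intro v hv
  rw [hout, mul_assoc, mul_left_comm] at hv
  exact (Nat.Coprime.pow_left v hcop).dvd_of_dvd_mul_left hv

end Cfsg.Agent.H462.DPK
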