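import Cfsg.Agent.H817.DPi.Def
import Cfsg.Prelude.Def_KGroupFacts

/-!
# S4247, counting in a configuration (helper462, task K)
-/

set_option autoImplicit false

namespace Cfsg.Agent.H462.DPK

open Subgroup Cfsg Cfsg.Agent.H988.CPi Cfsg.Agent.H571.RV Cfsg.Agent.H817.DPi

universe u

theorem center_eq_bot {S : Type u} [Group S] [IsSimpleGroup S] (hna : ¬ IsMulCommutative S) :
    center S = ⊥ := by
  rcases (inferInstance : (center S).Normal).eq_bot_or_eq_top with h | h
  · exact h
  · exfalso
    apply hna
    refine ⟨⟨fun a b => ?_⟩⟩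
    have ha : b ∈ center S := by rw [h]; trivial
    exact (mem_center_iff.1 ha a)

theorem conj_injective {S : Type u} [Group S] [IsSimpleGroup S] (hna : ¬ IsMulCommutative S) :
    Function.Injective (MulAut.conj : S →* MulAut S) := by
  rw [injective_iff_map_eq_one]
  intro a ha
  have h1 : a ∈ center S := by
    rw [mem_center_iff]
    intro b
    have h2 : (MulAut.conj a) b = b := by rw [ha]; rfl
    rw [MulAut.conj_apply] at h2
    calc b * a = (a * b * a⁻¹) * a := by rw [h2]
      _ = a * b := by group
  rw [center_eq_bot hna, mem_bot] at h1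
  exact h1

/-- Task K -/
theorem cfg_bound {π : Set ℕ} {S : Type u} [Group S] [Finite S] [IsSimpleGroup S] (hna : ¬ IsMulCommutative S)
    {P : Subgroup S} {K B : Subgroup (MulAut S)} (h : Cfg π P K B) :
    ∃ B' K' : Subgroup S, B' ≠ ⊤ ∧ B'.index ≤ Nat.card P * Nat.card K' * Nat.card (Cfsg.Out S) ∧
      (∀ x ∈ P, ∀ k ∈ K', x * k = k * x) ∧ PiN' π (Nat.card K') := by
  have hinj := conj_injective hna
  have hdvd : ∀ X : Subgroup (MulAut S), Nat.card (X.comap MulAut.conj) ∣ Nat.card X := fun X => by
    rw [← Subgroup.card_map_of_injective hinj]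
    exact Subgroup.card_dvd_of_le (Subgroup.map_comap_le _ _)
  refine ⟨B.comap MulAut.conj, K.comap MulAut.conj, ?_, ?_, ?_, ?_⟩
  · intro htop
    have h1 := hdvd B
    rw [htop, Subgroup.card_top] at h1
    have h2 : Nat.card P ≠ 1 := by
      intro h2
      apply h.nnil
      rw [Subgroup.card_eq_one] at h2
      subst h2
      infer_instance
    obtain ⟨p, hp, hpd⟩ := Nat.exists_prime_and_dvd h2
    exact h.piB p hp (h.hall.1 p hp hpd) ((hpd.trans P.card_subgroup_dvd_card).trans h1)
  · have h1 : (B.comap MulAut.conj).index ≤ Nat.card P * Nat.card K := by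
      have hex : ∀ s : S, ∃ x ∈ P, ∃ k ∈ K, ∃ b ∈ B, MulAut.conj s = MulAut.conj x * k * b := fun s =>
        h.fac _ (Subgroup.mem_sup_right ⟨s, rfl⟩)
      choose x hx k hk b hb hs using hex
      rw [← Nat.card_prod]
      let φ : S ⧸ B.comap MulAut.conj → P × K := fun c => (⟨x c.out, hx _⟩, ⟨k c.out, hk _⟩)
      refine Nat.card_le_card_of_injective φ ?_
      intro c d hcd
      have h2 : x c.out = x d.out := congrArg (fun y : P × K => (y.1 : S)) hcd
      have h3 : k c.out = k d.out := congrArg (fun y : P × K => (y.2 : MulAut S)) hcd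
      rw [← c.out_eq', ← d.out_eq']
      refine QuotientGroup.eq.2 ?_
      rw [Subgroup.mem_comap, map_mul, map_inv, hs c.out, hs d.out, h2, h3]
      have h4 : (MulAut.conj (x d.out) * k d.out * b c.out)⁻¹ * (MulAut.conj (x d.out) * k d.out * b d.out) =
          (b c.out)⁻¹ * b d.out := by group
      rw [h4]
      exact B.mul_mem (B.inv_mem (hb _)) (hb _)
    have h2 : Nat.card K ≤ Nat.card (K.comap MulAut.conj) * Nat.card (Cfsg.Out S) := by
      have h3 : Nat.card ((inn S).subgroupOf K) * ((inn S).subgroupOf K).index = Nat.card K :=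
        ((inn S).subgroupOf K).card_mul_index
      rw [← h3]
      refine Nat.mul_le_mul ?_ ?_
      · have h4 : Nat.card ((inn S).subgroupOf K) = Nat.card (K.comap MulAut.conj) := by
          have h5 : ((inn S).subgroupOf K).map K.subtype = (K.comap MulAut.conj).map MulAut.conj := by
            rw [Subgroup.subgroupOf_map_subtype, Subgroup.map_comap_eq]
            rfl
          rw [← Subgroup.card_map_of_injective K.subtype_injective, h5, Subgroup.card_map_of_injective hinj]
        exact h4.le
      · have h4 : (inn S).relIndex K ∣ (inn S).index := Subgroup.relIndex_dvd_index_of_normal _ _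
        exact Nat.le_of_dvd (Nat.pos_of_ne_zero Subgroup.index_ne_zero_of_finite) h4
    calc (B.comap MulAut.conj).index ≤ Nat.card P * Nat.card K := h1
      _ ≤ Nat.card P * (Nat.card (K.comap MulAut.conj) * Nat.card (Cfsg.Out S)) := Nat.mul_le_mul_left _ h2
      _ = _ := by ring
  · intro x hx k hk
    have h1 : MulAut.conj k x = x := h.fix _ hk x hx
    rw [MulAut.conj_apply] at h1
    calc x * k = (k * x * k⁻¹) * k := by rw [h1]
      _ = k * x := by group
  · intro p hp hpi hd
    exact h.piK p hp hpi (hd.trans (hdvd K))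

end Cfsg.Agent.H462.DPK
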