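import Cfsg.Agent.H817.DPi.Def
import Cfsg.Agent.OddOrderLocal.HallPi
import Cfsg.Agent.S0205

/-!
# S4247: Hall subgroups above a central extension, a product bound (helper462, tasks L, M)
-/

set_option autoImplicit false

namespace Cfsg.Agent.H462.DPK

open Subgroup Cfsg Cfsg.Agent.H988.CPi

/-- a `π`-group, `2 ∉ π`, has odd order -/
theorem odd_of_pi {π : Set ℕ} (h2 : 2 ∉ π) {n : ℕ} (h : PiN π n) : Odd n := by
  rw [← Nat.not_even_iff_odd, even_iff_two_dvd]
  exact fun hd => h2 (h 2 Nat.prime_two hd)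

/-- Task L -/
theorem exists_hall_over {G G' : Type*} [Group G] [Group G'] [Finite G] (φ : G →* G') (hφ : Function.Surjective φ)
    (hker : ∀ k, φ k = 1 → ∀ x, k * x = x * k) {π : Set ℕ} (h2 : 2 ∉ π) {P : Subgroup G'} (hP : IsPiHall π P) :
    ∃ H : Subgroup G, IsPiHall π H ∧ H.map φ = P := by
  have : Finite G' := Finite.of_surjective φ hφ
  -- the preimage is solvable
  have hPs : Group.IsSolvable P := S0205.result (odd_of_pi h2 hP.1)
  have hMs : Group.IsSolvable (P.comap φ) := by
    let ψ : P.comap φ →* P := (φ.comp (P.comap φ).subtype).codRestrict P fun x => x.2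
    have hk : Group.IsSolvable ψ.ker := by
      have : ∀ a b : ψ.ker, a * b = b * a := by
        intro a b
        apply Subtype.ext
        apply Subtype.ext
        have ha : φ ((a : P.comap φ) : G) = 1 := congrArg Subtype.val (MonoidHom.mem_ker.1 a.2)
        exact hker _ ha _
      exact Group.isSolvable_of_comm this
    exact Group.isSolvable_of_ker_le_range ψ.ker.subtype ψ (by rw [Subgroup.range_subtype])
  obtain ⟨H, hHM, hH1, hH2⟩ := Cfsg.Agent.OddOrderLocal.HallPi.exists_isPiHallOf hMs π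
  have hle : H.map φ ≤ P := by
    rintro _ ⟨x, hx, rfl⟩
    exact hHM hx
  refine ⟨H, ⟨hH1, ?_⟩, ?_⟩
  · intro p hp hpi hd
    rw [← Subgroup.relIndex_mul_index hHM] at hd
    rcases (Nat.Prime.dvd_mul hp).1 hd with h | h
    · exact hH2 p hp hpi h
    · rw [Subgroup.index_comap_of_surjective _ hφ] at h
      exact hP.2 p hp hpi h
  · -- `|P : φ H|` is a `π`-number and a `π'`-number
    have h3 : (H.map φ).relIndex P ∣ H.relIndex (P.comap φ) := by
      have h4 : (P.comap φ).map φ = P := Subgroup.map_comap_eq_self_of_surjective hφ P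
      have h5 : (P.comap φ) ⊔ φ.ker = P.comap φ := sup_eq_left.2 fun x hx => by
        rw [Subgroup.mem_comap, MonoidHom.mem_ker.1 hx]
        exact P.one_mem
      have h6 : (H.map φ).relIndex ((P.comap φ).map φ) = (H ⊔ φ.ker).relIndex ((P.comap φ) ⊔ φ.ker) :=
        Subgroup.relIndex_map_map φ H (P.comap φ)
      rw [h4, h5] at h6
      rw [h6]
      exact Subgroup.relIndex_dvd_of_le_left _ le_sup_left
    have h5 : (H.map φ).relIndex P = 1 := by
      refine eq_one_of_both (π := π) ?_ ?_
      · exact PiN.of_dvd (show PiN π (Nat.card P) from hP.1) (Subgroup.relIndex_dvd_card _ _)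
      · exact PiN'.of_dvd (show PiN' π (H.relIndex (P.comap φ)) from hH2) h3
    exact le_antisymm hle (Subgroup.relIndex_eq_one.1 h5)

/-- Task M -/
theorem card_mul_le {G G' : Type*} [Group G] [Group G'] [Finite G] (φ : G →* G') (hφ : Function.Surjective φ)
    (hker : ∀ k, φ k = 1 → k * k = 1 ∧ ∀ x, k * x = x * k) {π : Set ℕ} (h2 : 2 ∉ π) {H T : Subgroup G}
    (hH : PiN π (Nat.card H)) (hTH : T ≤ H) {K' : Subgroup G'} (hK' : PiN' π (Nat.card K'))
    (hc : ∀ x ∈ H.map φ, ∀ k ∈ K', x * k = k * x) :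
    Nat.card (H.map φ) * Nat.card K' ≤
      (centralizer (T : Set G)).relIndex H * Nat.card (centralizer (T : Set G)) := by
  have : Finite G' := Finite.of_surjective φ hφ
  have hodd := odd_of_pi h2 hH
  -- an element of `H` of order dividing 2
  have hinv : ∀ x ∈ H, x * x = 1 → x = 1 := by
    intro x hx hxx
    have h3 : x ^ Nat.card H = 1 := by
      have := pow_card_eq_one' (x := (⟨x, hx⟩ : H))
      exact congrArg Subtype.val this
    obtain ⟨k, hk⟩ := hodd
    rw [hk, pow_succ, pow_mul, pow_two, hxx, one_pow, one_mul] at h3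
    exact h3
  have hle : centralizer (T : Set G) ⊓ H ≤ H := inf_le_right
  -- lifts of `K'`
  have hlift : ∀ k ∈ K', ∃ g ∈ centralizer (T : Set G), φ g = k := by
    intro k hk
    obtain ⟨g, rfl⟩ := hφ k
    refine ⟨g, ?_, rfl⟩
    rw [mem_centralizer_iff]
    intro z hz
    have hzH := hTH hz
    -- `c = g z g⁻¹ z⁻¹`
    have h3 : φ (g * z * g⁻¹ * z⁻¹) = 1 := by
      have h4 := hc (φ z) ⟨z, hzH, rfl⟩ _ hk
      rw [map_mul, map_mul, map_mul, map_inv, map_inv, ← h4]
      group
    obtain ⟨h5, h6⟩ := hker _ h3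
    obtain ⟨c, hcdef⟩ : ∃ c, c = g * z * g⁻¹ * z⁻¹ := ⟨_, rfl⟩
    rw [← hcdef] at h5 h6
    have h7 : g * z * g⁻¹ = c * z := by rw [hcdef]; group
    have h8 : (g * z * g⁻¹) ^ Nat.card H = 1 := by
      have h9 : z ^ Nat.card H = 1 := by
        have := pow_card_eq_one' (x := (⟨z, hzH⟩ : H))
        exact congrArg Subtype.val this
      rw [conj_pow, h9]
      group
    have h10 : c ^ Nat.card H = 1 := by
      have h9 : z ^ Nat.card H = 1 := by
        have := pow_card_eq_one' (x := (⟨z, hzH⟩ : H))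
        exact congrArg Subtype.val this
      rw [h7, (show Commute c z from h6 z).mul_pow, h9, mul_one] at h8
      exact h8
    have h11 : c = 1 := by
      obtain ⟨k, hk⟩ := hodd
      rw [hk, pow_succ, pow_mul, pow_two, h5, one_pow, one_mul] at h10
      exact h10
    rw [h11, one_mul] at h7
    calc z * g = (g * z * g⁻¹) * g := by rw [h7]
      _ = g * z := by group
  -- the injection
  have key : Nat.card (centralizer (T : Set G) ⊓ H : Subgroup G) * Nat.card K' ≤
      Nat.card (centralizer (T : Set G)) := by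
    choose lft hl1 hl2 using hlift
    rw [← Nat.card_prod]
    let ψ : (centralizer (T : Set G) ⊓ H : Subgroup G) × K' → (centralizer (T : Set G)).map φ := fun c =>
      ⟨φ c.1 * c.2, mul_mem ⟨c.1, c.1.2.1, rfl⟩ ⟨lft c.2 c.2.2, hl1 _ _, hl2 _ _⟩⟩
    have hψ : Function.Injective ψ := by
      rintro ⟨⟨a, ha⟩, ⟨b, hb⟩⟩ ⟨⟨a', ha'⟩, ⟨b', hb'⟩⟩ h
      have h3 : φ a * b = φ a' * b' := congrArg Subtype.val h
      have h4 : φ (a'⁻¹ * a) = b' * b⁻¹ := by
        rw [map_mul, map_inv]
        calc (φ a')⁻¹ * φ a = (φ a')⁻¹ * (φ a * b) * b⁻¹ := by group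
          _ = (φ a')⁻¹ * (φ a' * b') * b⁻¹ := by rw [h3]
          _ = b' * b⁻¹ := by group
      have h5 : a'⁻¹ * a ∈ H := H.mul_mem (H.inv_mem ha'.2) ha.2
      have h6 : φ (a'⁻¹ * a) = 1 := by
        rw [← orderOf_eq_one_iff]
        refine eq_one_of_both (π := π) ?_ ?_
        · refine PiN.of_dvd hH ((orderOf_map_dvd φ _).trans ?_)
          rw [← Subgroup.orderOf_mk _ h5]
          exact orderOf_dvd_natCard _
        · refine PiN'.of_dvd hK' ?_
          have h7 : φ (a'⁻¹ * a) ∈ K' := by rw [h4]; exact K'.mul_mem hb' (K'.inv_mem hb)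
          rw [← Subgroup.orderOf_mk _ h7]
          exact orderOf_dvd_natCard _
      have h7 : a'⁻¹ * a = 1 := hinv _ h5 (hker _ h6).1
      have h8 : a = a' := by
        calc a = a' * (a'⁻¹ * a) := by group
          _ = a' := by rw [h7, mul_one]
      subst h8
      have h9 : b = b' := mul_left_cancel h3
      subst h9
      rfl
    calc Nat.card ((centralizer (T : Set G) ⊓ H : Subgroup G) × K') ≤
          Nat.card ((centralizer (T : Set G)).map φ) := Nat.card_le_card_of_injective ψ hψ
      _ ≤ Nat.card (centralizer (T : Set G)) :=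
        Nat.card_le_card_of_surjective (φ.subgroupMap (centralizer (T : Set G))) (φ.subgroupMap_surjective _)
  have h3 : Nat.card (H.map φ) ≤ Nat.card H :=
    Nat.card_le_card_of_surjective (φ.subgroupMap H) (φ.subgroupMap_surjective _)
  have h4 : (centralizer (T : Set G)).relIndex H * Nat.card (centralizer (T : Set G) ⊓ H : Subgroup G) =
      Nat.card H := by
    rw [← Subgroup.inf_relIndex_right, mul_comm, ← Subgroup.relIndex_bot_left, ← Subgroup.relIndex_bot_left (H := H)]
    exact Subgroup.relIndex_mul_relIndex _ _ _ bot_le hle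
  calc Nat.card (H.map φ) * Nat.card K' ≤ Nat.card H * Nat.card K' := Nat.mul_le_mul_right _ h3
    _ = (centralizer (T : Set G)).relIndex H *
        (Nat.card (centralizer (T : Set G) ⊓ H : Subgroup G) * Nat.card K') := by rw [← h4]; ring
    _ ≤ _ := Nat.mul_le_mul_left _ key

end Cfsg.Agent.H462.DPK
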